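import Mathlib

/-!
# S5719: the quadratic étale subalgebra of `F[R]` (helper429)

`A` a commutative algebra over the finite field `F`, generated by elements of order dividing the odd prime `r`,
with an involution inverting the generators and no nontrivial self-adjoint idempotent; `4` does not divide the
order of `|F|` modulo `r`. Then `{x : x ^ (q ^ 2) = x}` is `F + F θ` with `θ* = 1 - θ`.
-/

set_option autoImplicit false

namespace Cfsg.Agent.H429.IFO

open FiniteField Polynomial

variable {F A : Type*} [Field F] [Fintype F] [CommRing A] [Algebra F A]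

/-- The data. -/
structure AlgData (τ : A →ₐ[F] A) (S : Set A) (r : ℕ) : Prop where
  gen : Algebra.adjoin F S = ⊤
  invol : ∀ x, τ (τ x) = x
  pow : ∀ s ∈ S, s ^ r = 1
  inv : ∀ s ∈ S, τ s * s = 1
  ne : ∃ s ∈ S, s ≠ 1
  prime : r.Prime
  odd : r ≠ 2
  char : (r : F) ≠ 0
  idem : ∀ e : A, e * e = e → τ e = e → e = 0 ∨ e = 1

theorem frob_pow_apply (m : ℕ) (x : A) : (frobeniusAlgHom F A ^ m) x = x ^ (Fintype.card F ^ m) := by
  rw [AlgHom.coe_pow, coe_frobeniusAlgHom, pow_iterate]

variable {τ : A →ₐ[F] A} {S : Set A} {r : ℕ}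

theorem AlgData.q_ne_zero (h : AlgData τ S r) : ((Fintype.card F : ℕ) : ZMod r) ≠ 0 := by
  intro h0
  rw [ZMod.natCast_eq_zero_iff] at h0
  obtain ⟨p, hp, n, hpr, hc⟩ := FiniteField.card' F
  rw [hc] at h0
  have h1 : r ∣ p := h.prime.dvd_of_dvd_pow h0
  have h2 : r = p := (Nat.prime_dvd_prime_iff_eq h.prime hpr).1 h1
  apply h.char
  rw [h2]
  exact CharP.cast_eq_zero F p

theorem AlgData.frob_one (h : AlgData τ S r) {m : ℕ} (hm : ((Fintype.card F : ℕ) : ZMod r) ^ m = 1) (x : A) :
    x ^ (Fintype.card F ^ m) = x := by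
  have h1 : (frobeniusAlgHom F A ^ m) = AlgHom.id F A := by
    apply AlgHom.ext_of_adjoin_eq_top h.gen
    intro s hs
    rw [frob_pow_apply]
    have h2 : ((Fintype.card F ^ m : ℕ) : ZMod r) = ((1 : ℕ) : ZMod r) := by
      push_cast
      exact hm
    have h3 : Fintype.card F ^ m ≡ 1 [MOD r] := (ZMod.natCast_eq_natCast_iff _ _ _).1 h2
    have h4 : s ^ (Fintype.card F ^ m) = s ^ 1 := by
      rw [← Nat.mod_add_div (Fintype.card F ^ m) r, h3, pow_add, pow_mul, h.pow s hs, one_pow, mul_one]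
      conv_rhs => rw [← Nat.mod_add_div 1 r, pow_add, pow_mul, h.pow s hs, one_pow, mul_one]
    rw [h4, pow_one]
    rfl
  rw [← frob_pow_apply, h1]
  rfl

theorem AlgData.frob_star (h : AlgData τ S r) {m : ℕ} (hm : ((Fintype.card F : ℕ) : ZMod r) ^ m = -1) (x : A) :
    x ^ (Fintype.card F ^ m) = τ x := by
  have h1 : (frobeniusAlgHom F A ^ m) = τ := by
    apply AlgHom.ext_of_adjoin_eq_top h.gen
    intro s hs
    rw [frob_pow_apply]
    have h2 : ((Fintype.card F ^ m + 1 : ℕ) : ZMod r) = 0 := by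
      push_cast
      rw [hm]
      ring
    rw [ZMod.natCast_eq_zero_iff] at h2
    obtain ⟨k, hk⟩ := h2
    have h3 : s ^ (Fintype.card F ^ m) * s = 1 := by
      rw [← pow_succ, hk, pow_mul, h.pow s hs, one_pow]
    have h4 : s * τ s = 1 := by rw [mul_comm]; exact h.inv s hs
    calc s ^ (Fintype.card F ^ m) = s ^ (Fintype.card F ^ m) * (s * τ s) := by rw [h4, mul_one]
      _ = (s ^ (Fintype.card F ^ m) * s) * τ s := by ring
      _ = τ s := by rw [h3, one_mul]
  rw [← frob_pow_apply, h1]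

/-- every element is periodic under the Frobenius map -/
theorem AlgData.exists_period (h : AlgData τ S r) :
    ∃ m, 0 < m ∧ ((Fintype.card F : ℕ) : ZMod r) ^ m = 1 := by
  have : Fact r.Prime := ⟨h.prime⟩
  refine ⟨r - 1, Nat.sub_pos_of_lt h.prime.one_lt, ?_⟩
  exact ZMod.pow_card_sub_one_eq_one h.q_ne_zero

theorem AlgData.reduced (h : AlgData τ S r) {x : A} (hx : x * x = 0) : x = 0 := by
  obtain ⟨m, hm, hm1⟩ := h.exists_period
  have h1 := h.frob_one hm1 x
  have h2 : 2 ≤ Fintype.card F ^ m := by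
    have := Fintype.one_lt_card (α := F)
    calc 2 ≤ Fintype.card F := this
      _ = Fintype.card F ^ 1 := (pow_one _).symm
      _ ≤ _ := Nat.pow_le_pow_right (by omega) hm
  obtain ⟨k, hk⟩ := Nat.exists_eq_add_of_le h2
  rw [← h1, hk, pow_add, pow_two, hx, zero_mul]

/-- the elements fixed by the Frobenius map and the involution are scalars -/
theorem AlgData.scalar (h : AlgData τ S r) [Nontrivial A] {x : A} (hx : x ^ Fintype.card F = x) (hτ : τ x = x) :
    ∃ c : F, x = algebraMap F A c := by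
  classical
  by_contra hcon
  push Not at hcon
  have hq : 1 < Fintype.card F := Fintype.one_lt_card
  have hunit : ∀ c : F, IsUnit (x - algebraMap F A c) := by
    intro c
    set y := x - algebraMap F A c with hy
    have hyq : y ^ Fintype.card F = y := by
      have h1 : y ^ Fintype.card F = frobeniusAlgHom F A y := rfl
      have h2 : x ^ Fintype.card F = frobeniusAlgHom F A x := rfl
      rw [h1, hy, map_sub, ← h2, hx, AlgHom.commutes]
    have hyτ : τ y = y := by rw [hy, map_sub, hτ, AlgHom.commutes]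
    obtain ⟨k, hk⟩ := Nat.exists_eq_add_of_le hq
    have hk' : Fintype.card F = k + 2 := by omega
    rw [hk'] at hyq
    have hidem : (1 - y ^ (k + 1)) * (1 - y ^ (k + 1)) = 1 - y ^ (k + 1) := by
      have h1 : y ^ (k + 1) * y ^ (k + 1) = y ^ (k + 1) := by
        calc y ^ (k + 1) * y ^ (k + 1) = y ^ (k + 2) * y ^ k := by ring
          _ = y ^ (k + 1) := by rw [hyq]; ring
      linear_combination h1
    rcases h.idem _ hidem (by rw [map_sub, map_one, map_pow, hyτ]) with h1 | h1
    · have h2 : y ^ (k + 1) = 1 := by linear_combination -h1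
      exact IsUnit.of_pow_eq_one h2 (by omega)
    · exfalso
      have h2 : y ^ (k + 1) = 0 := by linear_combination -h1
      have h3 : y = 0 := by
        rw [← hyq, pow_succ, h2, zero_mul]
      exact hcon c (sub_eq_zero.1 h3)
  have hprod : ∏ c : F, (x - algebraMap F A c) = 0 := by
    have h1 : ∏ c : F, ((X : F[X]) - C c) = X ^ Fintype.card F - X := by
      have h2 := prod_multiset_X_sub_C_of_monic_of_roots_card_eq (p := (X ^ Fintype.card F - X : F[X]))
        (monic_X_pow_sub (by rw [degree_X]; exact_mod_cast hq)) (by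
          rw [roots_X_pow_card_sub_X, X_pow_card_sub_X_natDegree_eq F hq]
          rfl)
      rw [roots_X_pow_card_sub_X] at h2
      exact h2
    have h2 := congrArg (aeval x) h1
    rw [map_prod, map_sub, map_pow, aeval_X, hx, sub_self] at h2
    rw [← h2]
    refine Finset.prod_congr rfl fun c _ => ?_
    rw [map_sub, aeval_X, aeval_C]
  have h1 : IsUnit (∏ c : F, (x - algebraMap F A c)) := by
    rw [IsUnit.prod_univ_iff]
    exact hunit
  rw [hprod] at h1
  exact not_isUnit_zero h1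

theorem iter_two {q : ℕ} {x : A} (hx : x ^ (q ^ 2) = x) (k : ℕ) : x ^ (q ^ (2 * k)) = x := by
  induction k with
  | zero => rw [mul_zero, pow_zero, pow_one]
  | succ k ih => rw [mul_add, mul_one, pow_add, pow_mul, ih, hx]

/-- the self-adjoint elements with `x ^ (q ^ 2) = x` are scalars -/
theorem AlgData.scalar_two (h : AlgData τ S r) [Nontrivial A]
    (h4 : ¬ 4 ∣ orderOf ((Fintype.card F : ℕ) : ZMod r)) {x : A} (hx : x ^ (Fintype.card F ^ 2) = x) (hτ : τ x = x) :
    ∃ c : F, x = algebraMap F A c := by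
  have : Fact r.Prime := ⟨h.prime⟩
  apply h.scalar _ hτ
  set q := Fintype.card F with hq
  have hm := pow_orderOf_eq_one ((q : ℕ) : ZMod r)
  have hpos : 0 < orderOf ((q : ℕ) : ZMod r) := by
    obtain ⟨m, h0, h1⟩ := h.exists_period
    exact orderOf_pos_iff.2 (isOfFinOrder_iff_pow_eq_one.2 ⟨m, h0, h1⟩)
  rcases Nat.even_or_odd' (orderOf ((q : ℕ) : ZMod r)) with ⟨e, he | he⟩
  · have heo : Odd e := by
      rw [← Nat.not_even_iff_odd]
      rintro ⟨k, hk⟩
      apply h4
      rw [he, hk]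
      exact ⟨k, by ring⟩
    have h1 : ((q : ℕ) : ZMod r) ^ e = -1 := by
      have h2 : ((q : ℕ) : ZMod r) ^ e * ((q : ℕ) : ZMod r) ^ e = 1 := by
        rw [← pow_add, ← two_mul, ← he, hm]
      rcases mul_self_eq_one_iff.1 h2 with h3 | h3
      · exfalso
        have h5 : orderOf ((q : ℕ) : ZMod r) ∣ e := orderOf_dvd_of_pow_eq_one h3
        have h6 := Nat.le_of_dvd (by omega) h5
        omega
      · exact h3
    have h2 := h.frob_star h1 x
    obtain ⟨k, hk⟩ := heo
    rw [← hq, hτ, hk, pow_succ, pow_mul, iter_two hx] at h2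
    exact h2
  · have h2 := h.frob_one hm x
    rw [← hq, he, pow_succ, pow_mul, iter_two hx] at h2
    exact h2

/-- In a finite field with an involutory automorphism over `F` there is an element of degree two over `F`. -/
theorem exists_deg_two {F K : Type*} [Field F] [Fintype F] [Field K] [Finite K] [Algebra F K] (τ : K →ₐ[F] K)
    (hτ : ∀ x, τ (τ x) = x) (hne : ∃ x, τ x ≠ x) :
    ∃ x : K, x ^ (Fintype.card F ^ 2) = x ∧ x ^ (Fintype.card F) ≠ x := by
  have : Fintype K := Fintype.ofFinite K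
  obtain ⟨⟨j, hj⟩, hτj⟩ := (bijective_frobeniusAlgHom_pow F K).2 τ
  have hτj' : frobeniusAlgHom F K ^ j = τ := hτj
  have h2 : frobeniusAlgHom F K ^ (j + j) = 1 := by
    rw [pow_add, hτj']
    ext x
    exact hτ x
  have h3 : Module.finrank F K ∣ j + j := by
    rw [← orderOf_frobeniusAlgHom]
    exact orderOf_dvd_of_pow_eq_one h2
  have hj0 : j ≠ 0 := by
    rintro rfl
    obtain ⟨x, hx⟩ := hne
    apply hx
    rw [← hτj', pow_zero]
    rfl
  have hk : Module.finrank F K = 2 * j := by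
    obtain ⟨c, hc⟩ := h3
    have hc1 : c = 1 := by
      rcases Nat.lt_or_ge c 2 with h4 | h4
      · interval_cases c
        · omega
        · rfl
      · exfalso
        have : 2 * Module.finrank F K ≤ j + j := by
          rw [hc, mul_comm]
          exact Nat.mul_le_mul_left _ h4
        omega
    rw [hc1, mul_one] at hc
    omega
  have hcard : Nat.card Kˣ = Fintype.card F ^ (2 * j) - 1 := by
    rw [Nat.card_units, ← hk, ← Module.card_eq_pow_finrank, Nat.card_eq_fintype_card]
  set q := Fintype.card F with hq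
  have hq1 : 1 < q := Fintype.one_lt_card
  obtain ⟨g, hg⟩ := IsCyclic.exists_generator (α := Kˣ)
  have ho : orderOf g = q ^ (2 * j) - 1 := by
    rw [orderOf_eq_card_of_forall_mem_zpowers hg, hcard]
  have hdvd : q ^ 2 - 1 ∣ q ^ (2 * j) - 1 := by
    rw [pow_mul]
    have := Nat.sub_dvd_pow_sub_pow (q ^ 2) 1 j
    rwa [one_pow] at this
  obtain ⟨c, hc⟩ := hdvd
  have hq2 : q < q ^ 2 := by
    rw [pow_two]
    exact (Nat.lt_mul_iff_one_lt_left (by omega)).2 hq1
  have hpos : 0 < q ^ (2 * j) - 1 := by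
    have : q ^ 2 ≤ q ^ (2 * j) := Nat.pow_le_pow_right (by omega) (by omega)
    omega
  have hc0 : c ≠ 0 := by
    rintro rfl
    omega
  have ho2 : orderOf (g ^ c) = q ^ 2 - 1 := by
    rw [orderOf_pow_of_dvd hc0 (by rw [ho, hc]; exact ⟨_, mul_comm _ _⟩), ho, hc]
    exact Nat.mul_div_cancel _ (Nat.pos_of_ne_zero hc0)
  refine ⟨((g ^ c : Kˣ) : K), ?_, ?_⟩
  · have h5 : (g ^ c) ^ (q ^ 2) = g ^ c := by
      have h6 : q ^ 2 = (q ^ 2 - 1) + 1 := by omega
      rw [h6, pow_succ, ← ho2, pow_orderOf_eq_one, one_mul]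
    rw [← Units.val_pow_eq_pow_val, h5]
  · intro h5
    have h6 : (g ^ c) ^ q = g ^ c := Units.ext (by rw [Units.val_pow_eq_pow_val]; exact h5)
    have h7 : (g ^ c) ^ (q - 1) = 1 := by
      have h8 : q = (q - 1) + 1 := by omega
      rw [h8, pow_succ] at h6
      exact mul_eq_right.1 h6
    have h8 : q ^ 2 - 1 ∣ q - 1 := by
      rw [← ho2]
      exact orderOf_dvd_of_pow_eq_one h7
    have h9 := Nat.le_of_dvd (by omega) h8
    omega

/-- there is a nonscalar element with `x ^ (q ^ 2) = x` -/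
theorem AlgData.exists_nonscalar (h : AlgData τ S r) [Nontrivial A] [Finite A] :
    ∃ x : A, x ^ (Fintype.card F ^ 2) = x ∧ ∀ c : F, x ≠ algebraMap F A c := by
  by_contra hcon
  push Not at hcon
  obtain ⟨m, hm, hm1⟩ := h.exists_period
  have hinj : Function.Injective (algebraMap F A) := (algebraMap F A).injective
  have hq1 : 1 < Fintype.card F := Fintype.one_lt_card
  have h2 : 2 ≤ Fintype.card F ^ m := by
    calc 2 ≤ Fintype.card F := hq1
      _ = Fintype.card F ^ 1 := (pow_one _).symm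
      _ ≤ _ := Nat.pow_le_pow_right (by omega) hm
  have hF : IsField A := by
    refine ⟨⟨0, 1, zero_ne_one⟩, mul_comm, fun {x} hx => ?_⟩
    have h3 := h.frob_one hm1 x
    obtain ⟨k, hk⟩ := Nat.exists_eq_add_of_le h2
    have hk' : Fintype.card F ^ m = k + 2 := by omega
    rw [hk'] at h3
    have h4 : x ^ (k + 1) * x ^ (k + 1) = x ^ (k + 1) := by
      calc x ^ (k + 1) * x ^ (k + 1) = x ^ (k + 2) * x ^ k := by ring
        _ = x ^ (k + 1) := by rw [h3]; ring
    have h5 : ∀ n : ℕ, n ≠ 0 → (x ^ (k + 1)) ^ n = x ^ (k + 1) := by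
      intro n hn
      obtain ⟨n, rfl⟩ := Nat.exists_eq_succ_of_ne_zero hn
      induction n with
      | zero => rw [Nat.succ_eq_add_one, zero_add, pow_one]
      | succ n ih => rw [pow_succ, ih (Nat.succ_ne_zero n), h4]
    obtain ⟨c, hc⟩ := hcon _ (h5 (Fintype.card F ^ 2) (by positivity))
    have h6 : c * c = c := by
      apply hinj
      rw [map_mul, ← hc, h4]
    have h6' : c * (c - 1) = 0 := by linear_combination h6
    rcases mul_eq_zero.1 h6' with h7 | h7
    · exfalso
      apply hx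
      rw [h7, map_zero] at hc
      rw [← h3, show k + 2 = (k + 1) + 1 from rfl, pow_succ, hc, zero_mul]
    · rw [sub_eq_zero.1 h7, map_one] at hc
      exact ⟨x ^ k, by rw [← pow_succ', hc]⟩
  obtain ⟨s, hs, hs1⟩ := h.ne
  have hne : ∃ x, τ x ≠ x := by
    refine ⟨s, fun h0 => ?_⟩
    have h3 := h.inv s hs
    rw [h0, ← pow_two] at h3
    apply hs1
    obtain ⟨k, hk⟩ := h.prime.odd_of_ne_two h.odd
    have h5 := h.pow s hs
    rwa [hk, pow_succ, pow_mul, h3, one_pow, one_mul] at h5
  obtain ⟨x, hx, hxq⟩ := @exists_deg_two F A _ _ hF.toField _ _ τ h.invol hne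
  obtain ⟨c, hc⟩ := hcon x hx
  apply hxq
  rw [hc, ← map_pow, FiniteField.pow_card]

/-- **The quadratic étale subalgebra.** -/
theorem AlgData.exists_theta (h : AlgData τ S r) [Nontrivial A] [Finite A]
    (h4 : ¬ 4 ∣ orderOf ((Fintype.card F : ℕ) : ZMod r)) :
    ∃ (θ : A) (n : F), τ θ = 1 - θ ∧ θ * θ = θ - algebraMap F A n ∧ 4 * n ≠ 1 ∧
      (∀ x : A, x ^ (Fintype.card F ^ 2) = x ↔ ∃ a b : F, x = algebraMap F A a + algebraMap F A b * θ) := by
  set φ := frobeniusAlgHom F A ^ 2 with hφ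
  have hφx : ∀ x : A, φ x = x ^ (Fintype.card F ^ 2) := fun x => frob_pow_apply 2 x
  have hφτ : ∀ x : A, φ x = x → φ (τ x) = τ x := by
    intro x hx
    rw [hφx, ← map_pow, ← hφx, hx]
  have hsc : ∀ x : A, φ x = x → τ x = x → ∃ c : F, x = algebraMap F A c := fun x h1 h2 =>
    h.scalar_two h4 (by rw [← hφx]; exact h1) h2
  have hinj : Function.Injective (algebraMap F A) := (algebraMap F A).injective
  obtain ⟨x₀, hx₀, hns⟩ := h.exists_nonscalar
  rw [← hφx] at hx₀
  have hx₀τ : τ x₀ ≠ x₀ := fun h0 => by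
    obtain ⟨c, hc⟩ := hsc x₀ hx₀ h0
    exact hns c hc
  -- `θ`
  have hθ : ∃ θ : A, φ θ = θ ∧ τ θ = 1 - θ ∧ 2 * θ - 1 ≠ 0 := by
    by_cases h2 : (2 : F) = 0
    · have h2A : (2 : A) = 0 := by
        have : algebraMap F A 2 = 2 := map_ofNat _ 2
        rw [← this, h2, map_zero]
      obtain ⟨t, ht⟩ := hsc (x₀ + τ x₀) (by rw [map_add, hx₀, hφτ x₀ hx₀]) (by rw [map_add, h.invol, add_comm])
      have ht0 : t ≠ 0 := by
        rintro rfl
        rw [map_zero] at ht
        apply hx₀τ
        linear_combination ht - x₀ * h2A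
      have htt : algebraMap F A t⁻¹ * algebraMap F A t = 1 := by rw [← map_mul, inv_mul_cancel₀ ht0, map_one]
      refine ⟨algebraMap F A t⁻¹ * x₀, ?_, ?_, ?_⟩
      · rw [map_mul, AlgHom.commutes, hx₀]
      · rw [map_mul, AlgHom.commutes]
        linear_combination htt + algebraMap F A t⁻¹ * ht
      · intro h0
        apply one_ne_zero (α := A)
        linear_combination (algebraMap F A t⁻¹ * x₀) * h2A - h0
    · have h22 : algebraMap F A 2⁻¹ * 2 = 1 := by
        have : algebraMap F A 2 = 2 := map_ofNat _ 2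
        rw [← this, ← map_mul, inv_mul_cancel₀ h2, map_one]
      refine ⟨algebraMap F A 2⁻¹ * (1 + (x₀ - τ x₀)), ?_, ?_, ?_⟩
      · rw [map_mul, AlgHom.commutes, map_add, map_sub, hx₀, hφτ x₀ hx₀, map_one]
      · rw [map_mul, AlgHom.commutes, map_add, map_sub, h.invol, map_one]
        linear_combination h22
      · intro h0
        apply hx₀τ
        linear_combination (1 + (x₀ - τ x₀)) * h22 - h0
  obtain ⟨θ, hθφ, hθτ, hθ1⟩ := hθ
  obtain ⟨n, hn⟩ := hsc (θ * (1 - θ)) (by rw [map_mul, map_sub, map_one, hθφ])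
    (by rw [map_mul, map_sub, map_one, hθτ]; ring)
  have hsq : θ * θ = θ - algebraMap F A n := by linear_combination -hn
  have hδ : (2 * θ - 1) * (2 * θ - 1) = algebraMap F A (1 - 4 * n) := by
    rw [map_sub, map_mul, map_one, map_ofNat]
    linear_combination 4 * hsq
  have hD : (1 : F) - 4 * n ≠ 0 := by
    intro h0
    rw [h0, map_zero] at hδ
    exact hθ1 (h.reduced hδ)
  refine ⟨θ, n, hθτ, hsq, fun h0 => hD (by rw [h0, sub_self]), fun x => ⟨fun hx => ?_, ?_⟩⟩
  · rw [← hφx] at hx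
    have hDD : algebraMap F A (1 - 4 * n)⁻¹ * algebraMap F A (1 - 4 * n) = 1 := by
      rw [← map_mul, inv_mul_cancel₀ hD, map_one]
    obtain ⟨b, hb⟩ := hsc (algebraMap F A (1 - 4 * n)⁻¹ * ((x - τ x) * (2 * θ - 1)))
      (by
        rw [map_mul, AlgHom.commutes, map_mul, map_sub, map_sub, map_mul, hx, hφτ x hx, hθφ, map_one, map_ofNat])
      (by
        rw [map_mul, AlgHom.commutes, map_mul, map_sub, map_sub, map_mul, h.invol, hθτ, map_one, map_ofNat]
        ring)
    have hbδ : algebraMap F A b * (2 * θ - 1) = x - τ x := by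
      rw [← hb]
      linear_combination (algebraMap F A (1 - 4 * n)⁻¹ * (x - τ x)) * hδ + (x - τ x) * hDD
    obtain ⟨a, ha⟩ := hsc (x - algebraMap F A b * θ)
      (by rw [map_sub, map_mul, AlgHom.commutes, hx, hθφ])
      (by
        rw [map_sub, map_mul, AlgHom.commutes, hθτ]
        linear_combination hbδ)
    exact ⟨a, b, by linear_combination ha⟩
  · rintro ⟨a, b, rfl⟩
    rw [← hφx, map_add, map_mul, AlgHom.commutes, AlgHom.commutes, hθφ]

end Cfsg.Agent.H429.IFO
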