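import Cfsg.Agent.H429.IFO.One
import Cfsg.Agent.H283.Fxo.Beta

/-!
# S5719: `KillO` for the orthogonal groups, all cells (helper429)

`killO_two` : dimension `2 mod 4`; `odd_O`, `plus_O`, `minus_O` : the cells of `CellsO`.
-/

set_option autoImplicit false

namespace Cfsg.Agent.H429.IFO

open QuadraticMap Cfsg.Agent.LieClassical.OrthCore Cfsg.Agent.LieClassical.OrthTrans
  Cfsg.Agent.ClassicalGeometry.OrthAut1 Cfsg.Agent.H209.Fxy Cfsg.Agent.H283.Fxo

/-- **`KillO` in dimension `2 mod 4`.** -/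
theorem killO_two {F V : Type*} [Field F] [AddCommGroup V] [Module F V] {Q : QuadraticForm F V} [Finite F]
    (hG : Good Q) (h10 : 10 ≤ Module.finrank F V) (hn : Module.finrank F V % 4 = 2) : KillO (P Q) := by
  intro A Γ h hodd
  have hP := finite_P hG
  obtain ⟨r, R, hr, hr2, hRA, hR, hpow, hcomm, hinv⟩ := H447.IFO.exists_elemAb h hodd
  by_cases hrF : (r : F) = 0
  · by_cases h2 : (2 : F) = 0
    · exfalso
      apply hr2
      have h5 : ringChar F ∣ r := ringChar.dvd hrF
      have h6 : ringChar F ∣ 2 := ringChar.dvd (by exact_mod_cast h2)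
      have h7 : ringChar F ≠ 1 := CharP.ringChar_ne_one
      have h8 := ((Nat.dvd_prime hr).1 h5).resolve_left h7
      have h9 := ((Nat.dvd_prime Nat.prime_two).1 h6).resolve_left h7
      rw [← h8, h9]
    · exact H22.IFO.no_p hG h hodd hr hr2 hRA hR hpow hcomm hinv h2 (by omega) hrF
  · have hS : Semi Q Γ := semi_of hG (by omega) (fun h8 => by omega) Γ
    by_cases hid : ∃ e ∈ Idm Q (hatSet R r), e ≠ 0 ∧ e ≠ 1
    · exact Cfsg.Agent.H283.Fxo.beta hG h hodd hS hr hr2 hcomm hinv hid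
    · push Not at hid
      refine one hG h hodd hr hr2 hR hpow hcomm hinv hS hrF (fun e he => ?_) hn h10
      by_cases h0 : e = 0
      · exact Or.inl h0
      · exact Or.inr (hid e he h0)

/-- **The cell `odd_O`.** -/
theorem odd_O (F : Type) [Field F] [Fintype F] (m : ℕ) (ho : Odd (Fintype.card F)) (hm : 3 ≤ m)
    (_hs : IsSimpleGroup (Cfsg.POmega F (Cfsg.quadFormOdd m F))) : KillO (Cfsg.POmega F (Cfsg.quadFormOdd m F)) :=
  Cfsg.Agent.H283.Fxo.odd_O F m ho hm

/-- **The cell `plus_O`.** -/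
theorem plus_O (F : Type) [Field F] [Fintype F] (m : ℕ) (hm : 4 ≤ m)
    (_hs : IsSimpleGroup (Cfsg.POmega F (Cfsg.quadFormPlus m F))) : KillO (Cfsg.POmega F (Cfsg.quadFormPlus m F)) := by
  rcases Nat.even_or_odd m with he | ho
  · exact H626.IFO.plus_O_even hm he
  have hfr : Module.finrank F (Fin m ⊕ Fin m → F) = 2 * m := by
    rw [Module.finrank_fintype_fun_eq_card, Fintype.card_sum, Fintype.card_fin]
    ring
  have hG : Good (Cfsg.Agent.LieClassical.OrthForms.plusForm m F) :=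
    Cfsg.Agent.LieClassical.OrthFinite.good_of_finite (Cfsg.Agent.LieClassical.OrthForms.nondeg_plusForm _ _) (by omega)
  rw [← Cfsg.Agent.LieClassical.OrthForms.coe_plusForm]
  apply H626.IFO.killO_POmega hG
  obtain ⟨k, rfl⟩ := ho
  exact killO_two hG (by rw [hfr]; omega) (by rw [hfr]; omega)

/-- **The cell `minus_O`.** -/
theorem minus_O (F : Type) [Field F] [Fintype F] (m : ℕ) (a b : F) (hm : 4 ≤ m)
    (hab : ∀ z₁ z₂ : F, z₁ ^ 2 + a * z₁ * z₂ + b * z₂ ^ 2 = 0 → z₁ = 0 ∧ z₂ = 0)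
    (_hs : IsSimpleGroup (Cfsg.POmega F (Cfsg.quadFormMinus (m - 1) F a b))) :
    KillO (Cfsg.POmega F (Cfsg.quadFormMinus (m - 1) F a b)) := by
  rcases Nat.even_or_odd m with he | ho
  · exact H626.IFO.minus_O_even a b hm he hab
  have hfr : Module.finrank F ((Fin (m - 1) ⊕ Fin (m - 1)) ⊕ Fin 2 → F) = 2 * m := by
    rw [Module.finrank_fintype_fun_eq_card, Fintype.card_sum, Fintype.card_sum, Fintype.card_fin, Fintype.card_fin]
    omega
  have hG : Good (Cfsg.Agent.LieClassical.OrthForms.minusForm (m - 1) F a b) :=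
    Cfsg.Agent.LieClassical.OrthFinite.good_of_finite
      (Cfsg.Agent.LieClassical.OrthForms.nondeg_minusForm (m - 1) F a b hab) (by omega)
  rw [← Cfsg.Agent.LieClassical.OrthForms.coe_minusForm]
  apply H626.IFO.killO_POmega hG
  obtain ⟨k, hk⟩ := ho
  exact killO_two hG (by rw [hfr]; omega) (by rw [hfr]; omega)

end Cfsg.Agent.H429.IFO
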