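import Cfsg.Agent.AutOrth.Main

/-!
# S5719, orthogonal groups: quadratic extensions acting on a quadratic space (helper429)

`θ` an operator with `θ² = θ - n`, `θ* = 1 - θ`, `Q (θ v) = n Q v`, `f(v, θ v) = Q v`, `4 n ≠ 1`.
* `exists_inv` : an involution of `E Q`, not a scalar, commuting with `θ`;
* `not_normal` : `E Q` does not normalise `F + F θ`.
-/

set_option autoImplicit false

namespace Cfsg.Agent.H429.IFO

open QuadraticMap Cfsg.Agent.LieClassical.OrthCore Cfsg.Agent.LieClassical.OrthTrans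
  Cfsg.Agent.LieClassical.OrthSimple
open scoped commutatorElement

variable {F V : Type*} [Field F] [AddCommGroup V] [Module F V] {Q : QuadraticForm F V}

/-- An operator for which all singular vectors are eigenvectors is a scalar. -/
theorem scalar_of_sing (hG : Good Q) {n : V →ₗ[F] V}
    (h : ∀ x : V, Q x = 0 → ∃ c : F, n x = c • x) : ∃ c : F, ∀ v : V, n v = c • v := by
  obtain ⟨x, y, hxy⟩ := hG.exists_hyp
  obtain ⟨c0, hc0⟩ := h x hxy.left
  have cancel : ∀ {z : V} {a b : F}, z ≠ 0 → a • z = b • z → a = b := by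
    intro z a b hz hab
    have h1 : (a - b) • z = 0 := by rw [sub_smul, hab, sub_self]
    rcases smul_eq_zero.1 h1 with h2 | h2
    · exact sub_eq_zero.1 h2
    · exact absurd h2 hz
  -- orthogonal and independent
  have h1 : ∀ {a b : V} {c d : F}, Q a = 0 → Q b = 0 → polar Q a b = 0 → a ≠ 0 →
      (∀ e : F, b ≠ e • a) → n a = c • a → n b = d • b → c = d := by
    intro a b c d ha hb hab ha0 hind hna hnb
    have hs : Q (a + b) = 0 := by rw [Q_add, ha, hb, hab]; simp
    obtain ⟨e, he⟩ := h (a + b) hs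
    rw [map_add, hna, hnb, smul_add] at he
    -- `(c - e) a = (e - d) b`
    have h2 : (e - d) • b = (c - e) • a := by
      have : (c - e) • a - (e - d) • b = (c • a + d • b) - (e • a + e • b) := by module
      rw [he, sub_self] at this
      exact (sub_eq_zero.1 this).symm
    by_cases h3 : e - d = 0
    · rw [h3, zero_smul] at h2
      have h4 : c - e = 0 := by
        rcases smul_eq_zero.1 h2.symm with h5 | h5
        · exact h5
        · exact absurd h5 ha0
      linear_combination h3 + h4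
    · exfalso
      apply hind ((e - d)⁻¹ * (c - e))
      rw [mul_smul, ← h2, smul_smul, inv_mul_cancel₀ h3, one_smul]
  refine ⟨c0, sing_induction hxy ?_ ?_⟩
  · intro a b ha hb
    show n (a + b) = _
    rw [map_add, ha, hb, smul_add]
  · intro a ha
    show n a = c0 • a
    by_cases ha0 : a = 0
    · rw [ha0]; simp
    obtain ⟨d, hd⟩ := h a ha
    rw [hd]
    congr 1
    -- find `w` orthogonal to `x` and `a` and independent of both
    by_cases hdep : ∃ e : F, a = e • x
    · obtain ⟨e, rfl⟩ := hdep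
      rw [map_smul, hc0, smul_comm] at hd
      exact (cancel ha0 hd).symm
    push Not at hdep
    by_cases hp : polar Q x a = 0
    · exact (h1 hxy.left ha hp hxy.left_ne hdep hc0 hd).symm
    · have hyp : Hyp Q x ((polar Q x a)⁻¹ • a) := by
        refine ⟨hxy.left, ?_, ?_⟩
        · rw [QuadraticMap.map_smul, ha, smul_zero]
        · rw [polar_smul_right, smul_eq_mul, inv_mul_cancel₀ hp]
      obtain ⟨w, hw0, hw, hxw, haw⟩ := hG.perp _ _ hyp
      have haw' : polar Q a w = 0 := by
        rw [polar_smul_left, smul_eq_mul] at haw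
        rcases mul_eq_zero.1 haw with h | h
        · exact absurd (inv_eq_zero.1 h) hp
        · exact h
      obtain ⟨f, hf⟩ := h w hw
      have e1 : c0 = f := by
        refine h1 hxy.left hw hxw hxy.left_ne ?_ hc0 hf
        rintro e rfl
        rw [polar_smul_right, polar_comm Q a x, smul_eq_mul] at haw'
        rcases mul_eq_zero.1 haw' with h | h
        · rw [h, zero_smul] at hw0
          exact hw0 rfl
        · exact hp h
      have e2 : d = f := by
        refine h1 ha hw haw' ha0 ?_ hd hf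
        rintro e rfl
        rw [polar_smul_right, smul_eq_mul] at hxw
        rcases mul_eq_zero.1 hxw with h | h
        · rw [h, zero_smul] at hw0
          exact hw0 rfl
        · exact hp h
      rw [e2, ← e1]

/-- A quadratic étale algebra `F + F θ` acting on `V`, compatibly with `Q`. -/
structure Th (Q : QuadraticForm F V) (θ : V →ₗ[F] V) (n : F) : Prop where
  adj : ∀ u v, polar Q (θ u) v = polar Q u (v - θ v)
  sq : ∀ v, θ (θ v) = θ v - n • v
  disc : 4 * n ≠ 1
  norm : ∀ v, Q (θ v) = n * Q v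
  tr : ∀ v, polar Q v (θ v) = Q v

variable {θ : V →ₗ[F] V} {n : F}

/-- `θ` is not a scalar -/
theorem Th.not_scalar (hG : Good Q) (h : Th Q θ n) : ¬ ∃ c : F, ∀ v, θ v = c • v := by
  rintro ⟨c, hc⟩
  obtain ⟨x, y, hxy⟩ := hG.exists_hyp
  have h1 := h.adj x y
  rw [hc, hc, polar_smul_left, polar_sub_right, polar_smul_right, hxy.pair] at h1
  simp only [smul_eq_mul] at h1
  have h2 := h.sq x
  rw [hc, hc, smul_smul, ← sub_smul] at h2
  have h3 : (c * c - (c - n)) • x = 0 := by rw [sub_smul, h2, sub_self]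
  rcases smul_eq_zero.1 h3 with h4 | h4
  · apply h.disc
    linear_combination 4 * h4 - (2 * c - 1) * h1
  · exact hxy.left_ne h4

/-- a singular vector with `θ u` independent of `u` -/
theorem Th.exists_sing (hG : Good Q) (h : Th Q θ n) : ∃ u, Q u = 0 ∧ ∀ c : F, θ u ≠ c • u := by
  by_contra hcon
  push Not at hcon
  exact h.not_scalar hG (scalar_of_sing hG hcon)

/-- `θ` commutes with no Siegel transformation moving... : the group `E Q` does not commute with `θ`. -/
theorem Th.not_comm (hG : Good Q) (h : Th Q θ n) (hc : ∀ g ∈ E Q, ∀ v, θ (g v) = g (θ v)) : False := by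
  obtain ⟨u, hu, hind⟩ := h.exists_sing hG
  obtain ⟨w, h1, h2⟩ := exists_sep hG.nondeg hind
  have h3 := hc _ (siegel_mem_E hu h1) u
  have huu : polar Q u u = 0 := polar_self_of_sing hu
  have hwu : polar Q w u = 0 := by rw [polar_comm]; exact h1
  have huθ : polar Q u (θ u) = 0 := by rw [h.tr, hu]
  have hwθ : polar Q w (θ u) = 1 := by rw [polar_comm]; exact h2
  rw [siegel_apply, siegel_apply, huu, hwu, huθ, hwθ] at h3
  simp only [zero_smul, add_zero, sub_zero, mul_zero, one_smul] at h3
  have h4 : u = 0 := by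
    have : u = θ u - (θ u - u) := by abel
    rw [← h3, sub_self] at this
    exact this
  apply hind 0
  rw [h4, map_zero, smul_zero]

/-- the operator `θ` and `1` are independent -/
theorem Th.ind (hG : Good Q) (h : Th Q θ n) {a b : F} (hab : ∀ v, a • v + b • θ v = 0) : a = 0 ∧ b = 0 := by
  have hb : b = 0 := by
    by_contra hb
    apply h.not_scalar hG
    refine ⟨-(b⁻¹ * a), fun v => ?_⟩
    have h1 := hab v
    have h2 : b • θ v = (-a) • v := by
      rw [neg_smul]
      exact eq_neg_of_add_eq_zero_right h1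
    rw [← one_smul F (θ v), ← inv_mul_cancel₀ hb, mul_smul, h2, smul_smul]
    congr 1
    ring
  refine ⟨?_, hb⟩
  obtain ⟨x, y, hxy⟩ := hG.exists_hyp
  have h1 := hab x
  rw [hb, zero_smul, add_zero] at h1
  rcases smul_eq_zero.1 h1 with h2 | h2
  · exact h2
  · exact absurd h2 hxy.left_ne

/-- an isometry normalising `F + F θ` maps `θ` to `θ` or `1 - θ` -/
theorem Th.conj (hG : Good Q) (h : Th Q θ n) {g : V ≃ₗ[F] V} (hg : g ∈ O Q) {a b : F}
    (hab : ∀ v, g (θ v) = a • g v + b • θ (g v)) :
    (∀ v, g (θ v) = θ (g v)) ∨ (∀ v, g (θ v) = g v - θ (g v)) := by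
  -- adjoints
  have e1 : 2 * a + b = 1 := by
    have h1 : ∀ v, (2 * a + b - 1) • v + (0 : F) • θ v = 0 := by
      intro v
      rw [zero_smul, add_zero]
      apply hG.nondeg
      intro y
      obtain ⟨v, rfl⟩ := g.surjective v
      obtain ⟨y, rfl⟩ := g.surjective y
      have h2 := h.adj v y
      rw [← polar_map hg, ← polar_map hg (v), map_sub, hab, hab, polar_add_left, polar_smul_left, polar_smul_left,
        h.adj, polar_sub_right, polar_sub_right, polar_add_right, polar_smul_right, polar_smul_right] at h2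
      rw [polar_smul_left]
      simp only [smul_eq_mul] at h2 ⊢
      linear_combination h2
    have h3 := (h.ind hG h1).1
    linear_combination h3
  have e2 : ∀ v, (a * a + n - b * b * n - a) • v + (2 * a * b + b * b - b) • θ v = 0 := by
    intro v
    obtain ⟨v, rfl⟩ := g.surjective v
    have h2 := hab (θ v)
    rw [h.sq, map_sub, map_smul, hab, map_add, map_smul, map_smul, h.sq] at h2
    have h3 : (a * a + n - b * b * n - a) • g v + (2 * a * b + b * b - b) • θ (g v) =
      (a • (a • g v + b • θ (g v)) + b • (a • θ (g v) + b • (θ (g v) - n • g v)))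
        - ((a • g v + b • θ (g v)) - n • g v) := by module
    rw [h3, ← h2, sub_self]
  obtain ⟨h3, -⟩ := h.ind hG e2
  have h4 : a * (a - 1) * (1 - 4 * n) = 0 := by
    have hb : b = 1 - 2 * a := by linear_combination e1
    subst hb
    linear_combination h3
  have h5 : (1 : F) - 4 * n ≠ 0 := fun h0 => h.disc (by linear_combination -h0)
  rcases mul_eq_zero.1 h4 with h6 | h6
  · rcases mul_eq_zero.1 h6 with h7 | h7
    · left
      intro v
      have hb : b = 1 := by linear_combination e1 - 2 * h7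
      rw [hab, h7, hb, zero_smul, zero_add, one_smul]
    · right
      intro v
      have ha : a = 1 := by linear_combination h7
      have hb : b = -1 := by linear_combination e1 - 2 * h7
      rw [hab, ha, hb, one_smul, neg_smul, one_smul, sub_eq_add_neg]
  · exact absurd h6 h5

/-- **`E Q` does not normalise `F + F θ`.** -/
theorem Th.not_normal (hG : Good Q) (h : Th Q θ n)
    (hN : ∀ g ∈ E Q, ∃ a b : F, ∀ v, g (θ v) = a • g v + b • θ (g v)) : False := by
  have h1 : ∀ g ∈ E Q, (∀ v, g (θ v) = θ (g v)) ∨ (∀ v, g (θ v) = g v - θ (g v)) := by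
    intro g hg
    obtain ⟨a, b, hab⟩ := hN g hg
    exact h.conj hG (E_le_O hg) hab
  let K : Subgroup (V ≃ₗ[F] V) :=
    { carrier := {g | ∀ v, g (θ v) = θ (g v)}
      mul_mem' := by
        intro g k hg hk v
        change g (k (θ v)) = θ (g (k v))
        rw [hk, hg]
      one_mem' := fun v => rfl
      inv_mem' := by
        intro g hg v
        obtain ⟨v, rfl⟩ := g.surjective v
        change g.symm (θ (g v)) = θ (g.symm (g v))
        rw [← hg, LinearEquiv.symm_apply_apply, LinearEquiv.symm_apply_apply] }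
  have h2 : ⁅E Q, E Q⁆ ≤ K := by
    rw [Subgroup.commutator_le]
    intro g hg k hk
    have key2 : ∀ {x : V ≃ₗ[F] V}, (∀ v, x (θ v) = x v - θ (x v)) → ∀ v, x⁻¹ (θ v) = x⁻¹ v - θ (x⁻¹ v) := by
      intro x hx v
      obtain ⟨v, rfl⟩ := x.surjective v
      apply x.injective
      change x (x.symm (θ (x v))) = x (x.symm (x v) - θ (x.symm (x v)))
      rw [LinearEquiv.apply_symm_apply, LinearEquiv.symm_apply_apply, map_sub, hx]
      abel
    rcases h1 g hg with hg1 | hg1
    · have hgK : g ∈ K := hg1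
      -- `⁅g,k⁆ = g * (k g⁻¹ k⁻¹)`
      rw [commutatorElement_def, mul_assoc, mul_assoc]
      refine K.mul_mem hgK ?_
      intro v
      change k (g⁻¹ (k⁻¹ (θ v))) = θ (k (g⁻¹ (k⁻¹ v)))
      have hgi' : ∀ v, g⁻¹ (θ v) = θ (g⁻¹ v) := K.inv_mem hgK
      rcases h1 k hk with hk1 | hk1
      · have hki' : ∀ v, k⁻¹ (θ v) = θ (k⁻¹ v) := K.inv_mem (x := k) hk1
        rw [hki', hgi', hk1]
      · rw [key2 hk1, map_sub, hgi', map_sub, hk1]
        abel
    · have hgi' := key2 hg1
      intro v
      rw [commutatorElement_def]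
      change g (k (g⁻¹ (k⁻¹ (θ v)))) = θ (g (k (g⁻¹ (k⁻¹ v))))
      rcases h1 k hk with hk1 | hk1
      · have hki' : ∀ v, k⁻¹ (θ v) = θ (k⁻¹ v) := K.inv_mem (x := k) hk1
        rw [hki', hgi', map_sub, hk1, map_sub, hg1]
        abel
      · have hki' := key2 hk1
        simp only [hki', hgi', map_sub, hk1, hg1]
        abel
  rw [hG.E_perfect] at h2
  exact h.not_comm hG fun g hg v => (h2 hg v).symm

/-! ### The involutions -/

/-- characteristic two: a unitary transvection -/
theorem Th.exists_inv_two (hG : Good Q) (h : Th Q θ n) (h2 : (2 : F) = 0) :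
    ∃ x ∈ E Q, (∀ v, x (x v) = v) ∧ (¬ ∃ c : F, ∀ v, x v = c • v) ∧ ∀ v, x (θ v) = θ (x v) := by
  obtain ⟨u, hu, hind⟩ := h.exists_sing hG
  have huθ : polar Q u (θ u) = 0 := by rw [h.tr, hu]
  have hQθ : Q (θ u) = 0 := by rw [h.norm, hu, mul_zero]
  have hx : ∀ v, siegel Q u (θ u) hu huθ v = v + polar Q u v • θ u - polar Q (θ u) v • u := by
    intro v
    rw [siegel_apply, hQθ, zero_mul, zero_smul, sub_zero]
  have hθθ : polar Q (θ u) (θ u) = 0 := polar_self_of_sing hQθ
  have huu : polar Q u u = 0 := polar_self_of_sing hu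
  have hθu : polar Q (θ u) u = 0 := by rw [polar_comm]; exact huθ
  refine ⟨_, siegel_mem_E hu huθ, ?_, ?_, ?_⟩
  · intro v
    rw [hx, hx]
    simp only [polar_add_right, polar_sub_right, polar_smul_right, huθ, huu, hθθ, hθu, smul_eq_mul, mul_zero,
      add_zero, sub_zero]
    have e : v + polar Q u v • θ u - polar Q (θ u) v • u + polar Q u v • θ u - polar Q (θ u) v • u =
      v + (2 : F) • (polar Q u v • θ u - polar Q (θ u) v • u) := by module
    rw [e, h2, zero_smul, add_zero]
  · rintro ⟨c, hc⟩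
    obtain ⟨w, h3, h4⟩ := exists_sep hG.nondeg hind
    have h5 := hc w
    rw [hx, h3, h4, zero_smul, add_zero, one_smul] at h5
    have h6 := congrArg (polar Q (θ u)) h5
    rw [polar_sub_right, polar_smul_right, h4, hθu, sub_zero, smul_eq_mul, mul_one] at h6
    rw [← h6, one_smul, sub_eq_self] at h5
    apply hind 0
    rw [h5, map_zero, smul_zero]
  · intro v
    rw [hx, hx, map_sub, map_add, map_smul, map_smul, h.sq]
    have e1 : polar Q u (θ v) = polar Q u v - polar Q (θ u) v := by
      have := h.adj u v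
      rw [polar_sub_right] at this
      linear_combination this
    have e2 : polar Q (θ u) (θ v) = n * polar Q u v := by
      rw [h.adj, h.sq]
      have : θ v - (θ v - n • v) = n • v := by abel
      rw [this, polar_smul_right, smul_eq_mul]
    rw [e1, e2]
    module

/-- odd characteristic: `-1` on two lines over `F + F θ` -/
theorem Th.exists_inv_odd [Finite F] (hG : Good Q) (hd : 10 ≤ Module.finrank F V) (h : Th Q θ n) (h2 : (2 : F) ≠ 0) :
    ∃ x ∈ E Q, (∀ v, x (x v) = v) ∧ (¬ ∃ c : F, ∀ v, x v = c • v) ∧ ∀ v, x (θ v) = θ (x v) := by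
  -- `δ = 2 θ - 1`
  let δ : V →ₗ[F] V := (2 : F) • θ - LinearMap.id
  have hδ : ∀ v, δ v = (2 : F) • θ v - v := fun v => rfl
  have hδδ : ∀ v, δ (δ v) = (1 - 4 * n) • v := by
    intro v
    rw [hδ, hδ, map_sub, map_smul, h.sq]
    module
  have hadj : ∀ u v, polar Q (δ u) v = - polar Q u (δ v) := by
    intro u v
    rw [hδ, hδ, polar_sub_left, polar_smul_left, h.adj, polar_sub_right, polar_sub_right, polar_smul_right]
    simp only [smul_eq_mul]
    ring
  have hself : ∀ v, polar Q v (δ v) = 0 := by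
    intro v
    rw [hδ, polar_sub_right, polar_smul_right, h.tr, polar_self', smul_eq_mul, sub_self]
  have hnorm : ∀ v, Q (δ v) = (4 * n - 1) * Q v := by
    intro v
    have e : δ v = (2 : F) • θ v + (-1 : F) • v := by rw [hδ]; module
    rw [e, Q_add, QuadraticMap.map_smul, QuadraticMap.map_smul, h.norm, polar_smul_left, polar_smul_right,
      polar_comm Q (θ v) v, h.tr]
    simp only [smul_eq_mul]
    ring
  have hD : (4 * n - 1 : F) ≠ 0 := fun h0 => h.disc (by linear_combination h0)
  -- the vectors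
  obtain ⟨x1, y1, hxy1⟩ := hG.exists_hyp
  let u1 := x1 + y1
  have hu1 : Q u1 = 1 := by
    change Q (x1 + y1) = 1
    rw [Q_add, hxy1.left, hxy1.right, hxy1.pair]; simp
  obtain ⟨x2, hx20, hx2, hx2p⟩ := Cfsg.Agent.LieClassical.OrthFinite.exists_sing_perp (Q := Q) ![u1, δ u1] (by omega)
  have hx2a : polar Q u1 x2 = 0 := hx2p 0
  have hx2b : polar Q (δ u1) x2 = 0 := hx2p 1
  -- a partner of `x2` orthogonal to `u1`, `δ u1`
  obtain ⟨y2, hy2⟩ := Cfsg.Agent.LieClassical.OrthTrans.exists_hyp hG.nondeg hx2 hx20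
  have hu1u1 : polar Q u1 u1 = 2 := by rw [polar_self', hu1, mul_one]
  have hδδ1 : polar Q (δ u1) (δ u1) = 2 * (4 * n - 1) := by rw [polar_self', hnorm, hu1, mul_one]
  have hs1 : polar Q u1 (δ u1) = 0 := hself u1
  have hs1' : polar Q (δ u1) u1 = 0 := by rw [polar_comm]; exact hs1
  let y := y2 - (polar Q u1 y2 / 2) • u1 - (polar Q (δ u1) y2 / (2 * (4 * n - 1))) • δ u1
  have hy1 : polar Q u1 y = 0 := by
    change polar Q u1 (y2 - (polar Q u1 y2 / 2) • u1 - (polar Q (δ u1) y2 / (2 * (4 * n - 1))) • δ u1) = 0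
    rw [polar_sub_right, polar_sub_right, polar_smul_right, polar_smul_right, hu1u1, hs1, smul_eq_mul, smul_zero,
      div_mul_cancel₀ _ h2, sub_self, sub_zero]
  have hyδ : polar Q (δ u1) y = 0 := by
    change polar Q (δ u1) (y2 - (polar Q u1 y2 / 2) • u1 - (polar Q (δ u1) y2 / (2 * (4 * n - 1))) • δ u1) = 0
    rw [polar_sub_right, polar_sub_right, polar_smul_right, polar_smul_right, hδδ1, hs1', smul_eq_mul, smul_eq_mul,
      mul_zero, div_mul_cancel₀ _ (mul_ne_zero h2 hD), sub_zero, sub_self]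
  have hxy : polar Q x2 y = 1 := by
    change polar Q x2 (y2 - (polar Q u1 y2 / 2) • u1 - (polar Q (δ u1) y2 / (2 * (4 * n - 1))) • δ u1) = 1
    rw [polar_sub_right, polar_sub_right, polar_smul_right, polar_smul_right, polar_comm Q x2 u1, hx2a,
      polar_comm Q x2 (δ u1), hx2b, smul_zero, smul_zero, sub_zero, sub_zero, hy2.pair]
  let u2 := (1 - Q y) • x2 + y
  have hu2 : Q u2 = 1 := by
    change Q ((1 - Q y) • x2 + y) = 1
    rw [Q_add, QuadraticMap.map_smul, hx2, polar_smul_left, hxy, smul_zero, smul_eq_mul]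
    ring
  have h12 : polar Q u1 u2 = 0 := by
    change polar Q u1 ((1 - Q y) • x2 + y) = 0
    rw [polar_add_right, polar_smul_right, hx2a, hy1, smul_zero, add_zero]
  have hδ12 : polar Q (δ u1) u2 = 0 := by
    change polar Q (δ u1) ((1 - Q y) • x2 + y) = 0
    rw [polar_add_right, polar_smul_right, hx2b, hyδ, smul_zero, add_zero]
  have h21 : polar Q u2 u1 = 0 := by rw [polar_comm]; exact h12
  have hδ21 : polar Q u2 (δ u1) = 0 := by rw [polar_comm]; exact hδ12
  have h1δ2 : polar Q u1 (δ u2) = 0 := by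
    have := hadj u1 u2
    rw [hδ12] at this
    linear_combination this
  have hδ2u1 : polar Q (δ u2) u1 = 0 := by rw [polar_comm]; exact h1δ2
  have hδ1δ2 : polar Q (δ u1) (δ u2) = 0 := by
    rw [hadj, hδδ, polar_smul_right, h12, smul_zero, neg_zero]
  have hδ2δ1 : polar Q (δ u2) (δ u1) = 0 := by rw [polar_comm]; exact hδ1δ2
  have hu2u2 : polar Q u2 u2 = 2 := by rw [polar_self', hu2, mul_one]
  have hδδ2 : polar Q (δ u2) (δ u2) = 2 * (4 * n - 1) := by rw [polar_self', hnorm, hu2, mul_one]
  have hs2 : polar Q u2 (δ u2) = 0 := hself u2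
  have hs2' : polar Q (δ u2) u2 = 0 := by rw [polar_comm]; exact hs2
  have hq1 : Q u1 ≠ 0 := by rw [hu1]; exact one_ne_zero
  have hq2 : Q u2 ≠ 0 := by rw [hu2]; exact one_ne_zero
  have hr1 : Q (δ u1) ≠ 0 := by rw [hnorm, hu1, mul_one]; exact hD
  have hr2 : Q (δ u2) ≠ 0 := by rw [hnorm, hu2, mul_one]; exact hD
  let D : F := (4 * n - 1)⁻¹
  have hDD : D * (4 * n - 1) = 1 := inv_mul_cancel₀ hD
  have hx : ∀ v, ((refl Q u2 hq2 * refl Q u1 hq1) * (refl Q (δ u2) hr2 * refl Q (δ u1) hr1)) v =
      v - polar Q u1 v • u1 - polar Q u2 v • u2 - (D * polar Q (δ u1) v) • δ u1 - (D * polar Q (δ u2) v) • δ u2 := by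
    intro v
    change refl Q u2 hq2 (refl Q u1 hq1 (refl Q (δ u2) hr2 (refl Q (δ u1) hr1 v))) = _
    have e1 : (Q (δ u1))⁻¹ = D := by rw [hnorm, hu1, mul_one]
    have e2 : (Q (δ u2))⁻¹ = D := by rw [hnorm, hu2, mul_one]
    simp only [refl_apply, e1, e2, hu1, hu2, polar_sub_right, polar_smul_right, h12, hδ12, h21, hδ21, h1δ2, hδ2u1,
      hδ1δ2, hδ2δ1, hs1, hs1', hs2, hs2', smul_eq_mul, mul_zero, sub_zero, inv_one, one_mul]
    module
  refine ⟨_, (E Q).mul_mem (hG.refl_mul_refl_mem hq1 hq2 (by rw [hu1, hu2]))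
    (hG.refl_mul_refl_mem hr1 hr2 (by rw [hnorm, hnorm, hu1, hu2])), ?_, ?_, ?_⟩
  · intro v
    rw [hx, hx]
    simp only [polar_sub_right, polar_smul_right, h12, hδ12, h21, hδ21, h1δ2, hδ2u1, hu1u1, hu2u2, hδδ1, hδδ2,
      hδ1δ2, hδ2δ1, hs1, hs1', hs2, hs2', smul_eq_mul, mul_zero, sub_zero]
    have e1 : ∀ a : F, D * (a - D * a * (2 * (4 * n - 1))) = - (D * a) := by
      intro a
      linear_combination (-2 * D * a) * hDD
    rw [e1, e1]
    module
  · rintro ⟨c, hc⟩
    have h3 := hc u1
    rw [hx, hu1u1, h21, hs1', hδ2u1] at h3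
    simp only [mul_zero, zero_smul, sub_zero] at h3
    have h4 : (c + 1) • u1 = 0 := by
      rw [add_smul, ← h3]
      module
    have hu10 : u1 ≠ 0 := by
      intro h0
      rw [h0, QuadraticMap.map_zero] at hu1
      exact zero_ne_one hu1
    have h5 : c + 1 = 0 := by
      rcases smul_eq_zero.1 h4 with h | h
      · exact h
      · exact absurd h hu10
    obtain ⟨w, hw0, hw⟩ := exists_perp_ne (Q := Q) ![u1, u2, δ u1, δ u2] (by omega)
    have h6 := hc w
    rw [hx, show polar Q u1 w = 0 from hw 0, show polar Q u2 w = 0 from hw 1, show polar Q (δ u1) w = 0 from hw 2,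
      show polar Q (δ u2) w = 0 from hw 3] at h6
    simp only [mul_zero, zero_smul, sub_zero] at h6
    have h7 : (2 : F) • w = 0 := by
      have hc' : c = -1 := by linear_combination h5
      rw [hc', neg_smul, one_smul] at h6
      rw [two_smul]
      nth_rewrite 1 [h6]
      exact neg_add_cancel w
    rcases smul_eq_zero.1 h7 with h | h
    · exact h2 h
    · exact hw0 h
  · intro v
    -- commutes with `δ`
    have hc : ∀ v, ((refl Q u2 hq2 * refl Q u1 hq1) * (refl Q (δ u2) hr2 * refl Q (δ u1) hr1)) (δ v) =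
        δ (((refl Q u2 hq2 * refl Q u1 hq1) * (refl Q (δ u2) hr2 * refl Q (δ u1) hr1)) v) := by
      intro v
      rw [hx, hx]
      have e1 : ∀ u, polar Q u (δ v) = - polar Q (δ u) v := fun u => by rw [hadj, neg_neg]
      have e2 : ∀ u, polar Q (δ u) (δ v) = (4 * n - 1) * polar Q u v := by
        intro u
        rw [e1, hδδ, polar_smul_left, smul_eq_mul]
        ring
      rw [e1, e1, e2, e2, map_sub, map_sub, map_sub, map_sub, map_smul, map_smul, map_smul, map_smul, hδδ, hδδ,
        ← mul_assoc, ← mul_assoc, hDD, one_mul, one_mul, smul_smul, smul_smul]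
      have e3 : ∀ a : F, D * a * (1 - 4 * n) = - a := by
        intro a
        linear_combination (-a) * hDD
      rw [e3, e3]
      module
    have e : ∀ w : V, θ w = (2 : F)⁻¹ • (w + δ w) := by
      intro w
      rw [hδ, add_sub_cancel, smul_smul, inv_mul_cancel₀ h2, one_smul]
    rw [e v, e, map_smul, map_add, hc]

end Cfsg.Agent.H429.IFO
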